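import Mathlib

/-!
# Two commuting copies of `Γ` with a common diagonal automorphism (helper86)

* `sq_dvd` : `|Γ|²` divides the order of `⟨φ Γ, ψ Γ, h⟩`;
* `odd_quot` : `(x ^ n - 1) / (x - 1)` is odd for `x`, `n` odd;
* `exists_sylow_le` : a subgroup whose order is divisible by the `2`-part of `|S|` contains a Sylow `2`-subgroup.
-/

set_option autoImplicit false

namespace Cfsg.Agent.H86.RV

open Subgroup

section

variable {Γ G : Type*} [Group Γ] [Finite Γ] [Group G] [Finite G]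

theorem card_pair (φ ψ : Γ →* G) (hφ : Function.Injective φ) (hψ : Function.Injective ψ)
    (hc : ∀ a b, φ a * ψ b = ψ b * φ a) (hz : Nat.card (center Γ) ∣ 2) :
    Nat.card Γ * Nat.card Γ ∣ 2 * Nat.card ↥(φ.range ⊔ ψ.range) := by
  set f : Γ × Γ →* G := MonoidHom.noncommCoprod φ ψ (fun a b => hc a b) with hf
  have hr : f.range = φ.range ⊔ ψ.range := MonoidHom.noncommCoprod_range φ ψ _
  have hfa : ∀ p : Γ × Γ, f p = φ p.1 * ψ p.2 := fun p => rfl
  have h1 : Nat.card f.ker * Nat.card f.range = Nat.card Γ * Nat.card Γ := by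
    rw [← Subgroup.index_ker, Subgroup.card_mul_index, Nat.card_prod]
  have h2 : Nat.card f.ker ∣ Nat.card (center Γ) := by
    have hmem : ∀ p ∈ f.ker, p.1 ∈ center Γ := by
      intro p hp
      rw [MonoidHom.mem_ker, hfa] at hp
      rw [mem_center_iff]
      intro g
      apply hφ
      rw [map_mul, map_mul, mul_eq_one_iff_eq_inv.1 hp, ← map_inv, hc]
    let k : f.ker →* center Γ :=
      { toFun := fun p => ⟨p.1.1, hmem _ p.2⟩
        map_one' := rfl
        map_mul' := fun _ _ => rfl }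
    have hk : Function.Injective k := by
      rw [injective_iff_map_eq_one]
      rintro ⟨⟨a, b⟩, hp⟩ hk1
      have ha : a = 1 := congrArg Subtype.val hk1
      subst ha
      have hb : φ 1 * ψ b = 1 := hp
      rw [map_one, one_mul] at hb
      have hb1 : b = 1 := hψ (hb.trans (map_one ψ).symm)
      subst hb1
      rfl
    rw [← Nat.card_congr (MonoidHom.ofInjective hk).toEquiv.symm]
    exact card_subgroup_dvd_card k.range
  rw [← h1, hr]
  exact Nat.mul_dvd_mul (h2.trans hz) dvd_rfl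

/-- **`|Γ|²` divides the order of `⟨φ Γ, ψ Γ, h⟩`** -/
theorem sq_dvd (φ ψ : Γ →* G) (hφ : Function.Injective φ) (hψ : Function.Injective ψ)
    (hc : ∀ a b, φ a * ψ b = ψ b * φ a) (hz : Nat.card (center Γ) ∣ 2) {h : G}
    (α β : Γ →* Γ) (h1 : ∀ a, h * φ a * h⁻¹ = φ (α a)) (h2 : ∀ a, h * ψ a * h⁻¹ = ψ (β a))
    (hn : ∀ a : Γ, ∃ b, α b ≠ a * b * a⁻¹) (hh : h * h ∈ φ.range ⊔ ψ.range) :
    Nat.card Γ * Nat.card Γ ∣ Nat.card ↥(φ.range ⊔ ψ.range ⊔ zpowers h) := by
  refine (card_pair φ ψ hφ hψ hc hz).trans ?_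
  set N : Subgroup G := φ.range ⊔ ψ.range with hN
  have hconj : ∀ x ∈ N, h * x * h⁻¹ ∈ N := by
    have h3 : N ≤ N.comap (MulAut.conj h).toMonoidHom := by
      nth_rewrite 1 [hN]
      refine sup_le ?_ ?_
      · rintro _ ⟨a, rfl⟩
        show h * φ a * h⁻¹ ∈ N
        rw [h1]
        exact (le_sup_left : φ.range ≤ N) ⟨_, rfl⟩
      · rintro _ ⟨a, rfl⟩
        show h * ψ a * h⁻¹ ∈ N
        rw [h2]
        exact (le_sup_right : ψ.range ≤ N) ⟨_, rfl⟩
    exact fun x hx => h3 hx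
  have hnorm : h ∈ normalizer (N : Set G) := by
    have hmap : N.map (MulAut.conj h).toMonoidHom = N := by
      apply Subgroup.eq_of_le_of_card_ge
      · rintro _ ⟨x, hx, rfl⟩
        exact hconj x hx
      · rw [Subgroup.card_map_of_injective (MulAut.conj h).injective]
    rw [mem_normalizer_iff]
    intro x
    refine ⟨hconj x, fun hx => ?_⟩
    have h3 : h * x * h⁻¹ ∈ N.map (MulAut.conj h).toMonoidHom := by rw [hmap]; exact hx
    obtain ⟨y, hy, hyx⟩ := h3
    have h4 : h * y * h⁻¹ = h * x * h⁻¹ := hyx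
    have h5 : y = x := mul_left_cancel (mul_right_cancel h4)
    rw [← h5]; exact hy
  have hle : N ≤ N ⊔ zpowers h := le_sup_left
  have hHn : N ⊔ zpowers h ≤ normalizer (N : Set G) := sup_le le_normalizer (by rwa [zpowers_le])
  have hnot : h ∉ N := by
    intro hmem
    have hr := MonoidHom.noncommCoprod_range φ ψ (fun a b => hc a b)
    have h3 := hr.ge hmem
    obtain ⟨⟨a, b⟩, hab⟩ := h3
    have hab' : φ a * ψ b = h := hab
    obtain ⟨c, hc'⟩ := hn a
    apply hc'
    apply hφ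
    rw [← h1, ← hab', map_mul, map_mul, map_inv]
    calc φ a * ψ b * φ c * (φ a * ψ b)⁻¹ = φ a * (ψ b * φ c) * (ψ b)⁻¹ * (φ a)⁻¹ := by group
      _ = φ a * (φ c * ψ b) * (ψ b)⁻¹ * (φ a)⁻¹ := by rw [hc]
      _ = φ a * φ c * (φ a)⁻¹ := by group
  have hNn : (N.subgroupOf (N ⊔ zpowers h)).Normal := (normal_subgroupOf_iff_le_normalizer hle).2 hHn
  have h4 : 2 ∣ (N.subgroupOf (N ⊔ zpowers h)).index := by
    let x : ↥(N ⊔ zpowers h) := ⟨h, (le_sup_right : zpowers h ≤ N ⊔ zpowers h) (mem_zpowers h)⟩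
    have h5 : orderOf (QuotientGroup.mk' (N.subgroupOf (N ⊔ zpowers h)) x) = 2 := by
      apply orderOf_eq_prime
      · rw [← map_pow, pow_two]
        exact (QuotientGroup.eq_one_iff _).2 (mem_subgroupOf.2 hh)
      · intro h6
        exact hnot (mem_subgroupOf.1 ((QuotientGroup.eq_one_iff _).1 h6))
    rw [← h5]
    exact orderOf_dvd_natCard _
  rw [← Subgroup.card_mul_index (N.subgroupOf (N ⊔ zpowers h)), mul_comm 2]
  refine Nat.mul_dvd_mul ?_ h4
  exact dvd_of_eq (Nat.card_congr (subgroupOfEquivOfLe hle).toEquiv.symm)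

end

/-- `(x ^ n - 1) / (x - 1)` is odd for `x`, `n` odd -/
theorem odd_quot {x n : ℕ} (hx : Odd x) (hn : Odd n) : ∃ c, Odd c ∧ x ^ n - 1 = (x - 1) * c := by
  refine ⟨∑ i ∈ Finset.range n, x ^ i, ?_, ?_⟩
  · rw [Finset.odd_sum_iff_odd_card_odd]
    have : (Finset.range n).filter (fun i => Odd (x ^ i)) = Finset.range n := by
      rw [Finset.filter_eq_self]
      exact fun i _ => hx.pow
    rw [this, Finset.card_range]
    exact hn
  · obtain ⟨m, hm⟩ := hx
    have h1 := geom_sum_mul_add (2 * m) n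
    rw [← hm] at h1
    rw [← h1, mul_comm]
    have h2 : x - 1 = 2 * m := by omega
    rw [h2]
    omega

/-- a subgroup whose order is divisible by the `2`-part of `|S|` contains a Sylow `2`-subgroup -/
theorem exists_sylow_le {S : Type*} [Group S] [Finite S] (H : Subgroup S)
    (h : ∀ k, 2 ^ k ∣ Nat.card S → 2 ^ k ∣ Nat.card H) : ∃ P : Sylow 2 S, (P : Subgroup S) ≤ H := by
  have : Fact (Nat.Prime 2) := ⟨Nat.prime_two⟩
  obtain ⟨Q⟩ : Nonempty (Sylow 2 H) := inferInstance
  obtain ⟨P, hP⟩ := (Q.isPGroup'.map H.subtype).exists_le_sylow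
  have h1 : Nat.card ↥((Q : Subgroup H).map H.subtype) = Nat.card (Q : Subgroup H) :=
    Subgroup.card_map_of_injective H.subtype_injective
  have h2 : (Q : Subgroup H).map H.subtype = (P : Subgroup S) := by
    apply Subgroup.eq_of_le_of_card_ge hP
    rw [h1]
    obtain ⟨k, hk⟩ := IsPGroup.iff_card.1 P.isPGroup'
    have h3 : 2 ^ k ∣ Nat.card H := h k (hk ▸ card_subgroup_dvd_card _)
    have h4 : 2 ^ k ∣ Nat.card (Q : Subgroup H) := by
      have := Q.pow_dvd_card_of_pow_dvd_card h3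
      exact this
    rw [hk]
    exact Nat.le_of_dvd Nat.card_pos h4
  refine ⟨P, ?_⟩
  rw [← h2]
  exact map_subtype_le _

end Cfsg.Agent.H86.RV
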