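import Cfsg.Agent.H86.RV.Abs
import Cfsg.Agent.Mrg.Omega.Lie.CenSL
import Cfsg.Agent.Hexagon.TwD4Par

/-!
# The subgroup `(SL₂ ∘ SL₂).2` of `G₂(E)` inside `D₄(E)` (helper86)
-/

set_option autoImplicit false
set_option maxHeartbeats 400000

namespace Cfsg.Agent.H86.RV

open Cfsg.Lie Cfsg.Agent.ChevalleyStructure
open Cfsg.Agent.ChevalleyStructure.Elts (InList)
open Cfsg.Agent.Omega.Lie.CenSL Cfsg.Agent.Omega.Lie.CenChev Cfsg.Agent.Omega.Lie.CenRGD
open Cfsg.Agent.Nodes.RGDChev

universe u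

theorem hp4 : IsType chevD4 4 coxeterD4 := by simp [IsType, typeList]

theorem hD4 : InList chevD4 := hp4.inList

section

variable {E : Type u} [Field E]

/-- `SL₂ → GL` for the root `r` -/
noncomputable def ps (E : Type u) [Field E] (r : ℕ) (hr : r < 24) : SL2 E →* GL chevD4.Idx E :=
  (chevD4.group E).subtype.comp (phiR hp4 E r hr)

theorem ps_up {r : ℕ} (hr : r < 24) (t : E) : ps E r hr (up t) = Elts.xG hD4 r t :=
  Units.ext (SL2Hom.phi_upper (goodR hp4 hr) (up t) t rfl)

theorem ps_lo {r : ℕ} (hr : r < 24) (t : E) : ps E r hr (lo t) = Elts.xG hD4 (chevD4.neg r) t :=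
  Units.ext (SL2Hom.phi_lower (goodR hp4 hr) (lo t) t rfl)

theorem odd_tab : ∀ r < 24, ∃ s < chevD4.nroots, ((RootCombGood.car chevD4 r s : ℤ) : ZMod 2) ≠ 0 := by
  have h : ∀ r < 24, ∃ s < 24, ((RootCombGood.car chevD4 r s : ℤ) : ZMod 2) ≠ 0 := by decide +kernel
  exact h

theorem ps_inj (h2 : (2 : E) ≠ 0) {r : ℕ} (hr : r < 24) : Function.Injective (ps E r hr) := by
  have h1 := phiV_inj hp4 (K := E) (r := r) hr (odd_tab r hr) h2
  rw [phiV_vec hp4 hr] at h1
  exact (Subtype.val_injective).comp h1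

/-! ### commuting pairs -/

theorem ps_comm {r s : ℕ} (hr : r < 24) (hs : s < 24) (hne : s ≠ r) (hneg : s ≠ chevD4.neg r)
    (h1 : chevD4.commTerms r s = []) (h2 : chevD4.commTerms r (chevD4.neg s) = [])
    (h3 : chevD4.commTerms (chevD4.neg r) s = []) (h4 : chevD4.commTerms (chevD4.neg r) (chevD4.neg s) = [])
    (N N' : SL2 E) : ps E s hs N * ps E r hr N' = ps E r hr N' * ps E s hs N := by
  have h5 := phi_comm hp4 (K := E) (r := r) (s := s) hr hs hne hneg h1 h2 h3 h4 N N'
  rw [phiV_vec hp4 hr, phiV_vec hp4 hs] at h5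
  exact congrArg Subtype.val h5

theorem comm_tab : ∀ r ∈ [18, 13, 12], ∀ s ∈ [23, 18, 13, 12], s ≠ r → s ≠ chevD4.neg r ∧
    chevD4.commTerms r s = [] ∧ chevD4.commTerms r (chevD4.neg s) = [] ∧
    chevD4.commTerms (chevD4.neg r) s = [] ∧ chevD4.commTerms (chevD4.neg r) (chevD4.neg s) = [] := by
  decide +kernel

theorem ps_comm' {r s : ℕ} (hr : r < 24) (hs : s < 24) (h1 : r ∈ [18, 13, 12]) (h2 : s ∈ [23, 18, 13, 12]) (h3 : s ≠ r)
    (N N' : SL2 E) : ps E s hs N * ps E r hr N' = ps E r hr N' * ps E s hs N := by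
  obtain ⟨a, b, c, d, e⟩ := comm_tab r h1 s h2 h3
  exact ps_comm hr hs h3 a b c d e N N'

/-! ### the torus -/

theorem coe_hGc {r : ℕ} (hr : r < 24) {c : E} (h0 : c ≠ 0) :
    ((Elts.hG hD4 r c : GL chevD4.Idx E) : Matrix chevD4.Idx chevD4.Idx E) =
      TorusConj.torus chevD4 E (fun s => Strings.cartanR chevD4 r s) c := by
  rw [Elts.coe_hG, StringMem.hMat_eq hD4 hr h0]
  rfl

theorem hG_x {r s : ℕ} (hr : r < 24) (hs : s < 24) {c : E} (h0 : c ≠ 0) (b : E) :
    Elts.hG hD4 r c * Elts.xG hD4 s b * (Elts.hG hD4 r c)⁻¹ = Elts.xG hD4 s (c ^ Strings.cartanR chevD4 r s * b) := by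
  rw [mul_inv_eq_iff_eq_mul]
  apply Units.ext
  rw [Units.val_mul, Units.val_mul, Elts.coe_xG, Elts.coe_xG, coe_hGc hr h0]
  exact TorusConj.torus_mul_x hp4.checked (additive_car hp4 r) h0 s b hs


theorem hG_ps {r : ℕ} (hr : r < 24) {c : E} (h0 : c ≠ 0) {d : E} (hd : d ≠ 0)
    (e1 : c ^ Strings.cartanR chevD4 14 r = d) (e2 : c ^ Strings.cartanR chevD4 14 (chevD4.neg r) = d⁻¹)
    (hn : chevD4.neg r < 24) (N : SL2 E) :
    Elts.hG hD4 14 c * ps E r hr N * (Elts.hG hD4 14 c)⁻¹ = ps E r hr (dl d hd N) := by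
  have h1 : (MulAut.conj (Elts.hG hD4 14 c)).toMonoidHom.comp (ps E r hr) = (ps E r hr).comp (dl d hd) := by
    apply hom_ext
    · intro t
      show Elts.hG hD4 14 c * ps E r hr (up t) * (Elts.hG hD4 14 c)⁻¹ = ps E r hr (dl d hd (up t))
      rw [dl_up, ps_up, ps_up, hG_x (by norm_num) hr h0, e1]
    · intro t
      show Elts.hG hD4 14 c * ps E r hr (lo t) * (Elts.hG hD4 14 c)⁻¹ = ps E r hr (dl d hd (lo t))
      rw [dl_lo, ps_lo, ps_lo, hG_x (by norm_num) hn h0, e2]
  exact DFunLike.congr_fun h1 N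

/-- `diag(c, c⁻¹)` -/
def dg (c : E) (h0 : c ≠ 0) : SL2 E := mk c 0 0 c⁻¹ (by rw [mul_inv_cancel₀ h0]; ring)

theorem ps_dg {r : ℕ} (hr : r < 24) {c : E} (h0 : c ≠ 0) : ps E r hr (dg c h0) = Elts.hG hD4 r c := by
  apply Units.ext
  rw [Elts.coe_hG, HMatDiagAll.hMat_eq_Phi (goodR hp4 hr) h0]
  exact coe_phiR hp4 hr (dg c h0)

theorem torus_add {m m' : ℕ → ℤ} {c : E} (h0 : c ≠ 0) :
    TorusConj.torus chevD4 E m c * TorusConj.torus chevD4 E m' c = TorusConj.torus chevD4 E (fun s => m s + m' s) c := by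
  rw [TorusConj.torus_def, TorusConj.torus_def, TorusConj.torus_def, Matrix.diagonal_mul_diagonal]
  congr 1
  funext i
  rcases i with i | s
  · show (1 : E) * 1 = 1
    ring
  · show c ^ m s.val * c ^ m' s.val = c ^ (m s.val + m' s.val)
    rw [zpow_add₀ h0]

theorem torus_congr {m m' : ℕ → ℤ} {c : E} (h : ∀ s < 24, m s = m' s) :
    TorusConj.torus chevD4 E m c = TorusConj.torus chevD4 E m' c := by
  rw [TorusConj.torus_def, TorusConj.torus_def]
  congr 1
  funext i
  rcases i with i | s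
  · rfl
  · show c ^ m s.val = c ^ m' s.val
    rw [h s.val s.isLt]

theorem sq_tab : ∀ s < 24, Strings.cartanR chevD4 14 s + Strings.cartanR chevD4 14 s +
    (Strings.cartanR chevD4 18 s + Strings.cartanR chevD4 13 s + Strings.cartanR chevD4 12 s) =
    Strings.cartanR chevD4 23 s := by
  decide +kernel

/-- **`h₁₄(c)² h₁₈(c) h₁₃(c) h₁₂(c) = h₂₃(c)`** -/
theorem hG_sq {c : E} (h0 : c ≠ 0) : Elts.hG hD4 14 c * Elts.hG hD4 14 c *
    (Elts.hG hD4 18 c * Elts.hG hD4 13 c * Elts.hG hD4 12 c) = Elts.hG hD4 23 c := by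
  apply Units.ext
  rw [Units.val_mul, Units.val_mul, Units.val_mul, Units.val_mul, coe_hGc (by norm_num) h0, coe_hGc (by norm_num) h0,
    coe_hGc (by norm_num) h0, coe_hGc (by norm_num) h0, coe_hGc (by norm_num) h0, torus_add h0, torus_add h0,
    torus_add h0, torus_add h0]
  exact torus_congr sq_tab

/-! ### the two homomorphisms -/

/-- the long root group of `G₂` -/
noncomputable def phi (E : Type u) [Field E] : SL2 E →* GL chevD4.Idx E := ps E 23 (by norm_num)

/-- the short root group of `G₂` -/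
noncomputable def psi (E : Type u) [Field E] : SL2 E →* GL chevD4.Idx E where
  toFun g := ps E 18 (by norm_num) g * ps E 13 (by norm_num) g * ps E 12 (by norm_num) g
  map_one' := by simp
  map_mul' g k := by
    have h1 := ps_comm' (E := E) (r := 13) (s := 18) (by norm_num) (by norm_num) (by simp) (by simp) (by norm_num) k g
    have h2 := ps_comm' (E := E) (r := 12) (s := 18) (by norm_num) (by norm_num) (by simp) (by simp) (by norm_num) k g
    have h3 := ps_comm' (E := E) (r := 12) (s := 13) (by norm_num) (by norm_num) (by simp) (by simp) (by norm_num) k g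
    rw [map_mul, map_mul, map_mul]
    calc ps E 18 (by norm_num) g * ps E 18 (by norm_num) k * (ps E 13 (by norm_num) g * ps E 13 (by norm_num) k) *
          (ps E 12 (by norm_num) g * ps E 12 (by norm_num) k)
        = ps E 18 (by norm_num) g * (ps E 18 (by norm_num) k * ps E 13 (by norm_num) g) *
          (ps E 13 (by norm_num) k * ps E 12 (by norm_num) g) * ps E 12 (by norm_num) k := by group
      _ = ps E 18 (by norm_num) g * (ps E 13 (by norm_num) g * ps E 18 (by norm_num) k) *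
          (ps E 12 (by norm_num) g * ps E 13 (by norm_num) k) * ps E 12 (by norm_num) k := by rw [h1, h3]
      _ = ps E 18 (by norm_num) g * ps E 13 (by norm_num) g * (ps E 18 (by norm_num) k *
          ps E 12 (by norm_num) g) * ps E 13 (by norm_num) k * ps E 12 (by norm_num) k := by group
      _ = ps E 18 (by norm_num) g * ps E 13 (by norm_num) g * (ps E 12 (by norm_num) g *
          ps E 18 (by norm_num) k) * ps E 13 (by norm_num) k * ps E 12 (by norm_num) k := by rw [h2]
      _ = _ := by group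

theorem psi_apply (g : SL2 E) : psi E g =
    ps E 18 (by norm_num) g * ps E 13 (by norm_num) g * ps E 12 (by norm_num) g := rfl

theorem phi_psi (a b : SL2 E) : phi E a * psi E b = psi E b * phi E a := by
  have h1 := ps_comm' (E := E) (r := 18) (s := 23) (by norm_num) (by norm_num) (by simp) (by simp) (by norm_num) a b
  have h2 := ps_comm' (E := E) (r := 13) (s := 23) (by norm_num) (by norm_num) (by simp) (by simp) (by norm_num) a b
  have h3 := ps_comm' (E := E) (r := 12) (s := 23) (by norm_num) (by norm_num) (by simp) (by simp) (by norm_num) a b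
  rw [psi_apply, phi, ← mul_assoc, ← mul_assoc, h1, mul_assoc _ (ps E 23 _ a), h2, ← mul_assoc,
    mul_assoc _ (ps E 23 _ a), h3, ← mul_assoc]

end

end Cfsg.Agent.H86.RV
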